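import Cfsg.Agent.H815.P4.Real
import Cfsg.Agent.H264.U4.Grps

/-!
# S5210, `q = 3`, (3P): the 3-fusion system of `Co₂` (helper815)

* `stThreeP_co2` : `StThreeP 32 3840`
-/

set_option autoImplicit false

namespace Cfsg.Agent.H815.P4

open Cfsg Cfsg.FusionSystem Cfsg.Agent.H776.P4
open Cfsg.Agent.H756.PU (HypK Ess Inv Com NormAut TIAut AF)
open Cfsg.Agent.H264.U4

universe u v

section
variable {K : Type u} [Field K] [StarRing K]

theorem IsTorP.mul_left {α β : MulAut (PG K)} {s l s' l' : K} {τ : K ≃+* K}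
    (h : IsTorP α s l (RingEquiv.refl K)) (h' : IsTorP β s' l' τ) : IsTorP (α * β) (s * s') (l * l') τ where
  ns := mul_ne_zero h.ns h'.ns
  nl := mul_ne_zero h.nl h'.nl
  sl := by rw [star_mul', h.sl, h'.sl]
  tst := h'.tst
  r g := by
    change (α (β g)).r = _
    rw [h.r, h'.r, RingEquiv.refl_apply]
    ring
  a g := by
    change (α (β g)).a = _
    rw [h.a, h'.a, RingEquiv.refl_apply, star_mul']
    ring
  b g := by
    change (α (β g)).b = _
    rw [h.b, h'.b, RingEquiv.refl_apply]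
    ring
  c g := by
    change (α (β g)).c = _
    rw [h.c, h'.c, RingEquiv.refl_apply]
    ring

theorem IsTorP.one : IsTorP (1 : MulAut (PG K)) 1 1 (RingEquiv.refl K) where
  ns := one_ne_zero
  nl := one_ne_zero
  sl := star_one K
  tst _ := rfl
  r g := by simp
  a g := by simp
  b g := by simp
  c g := by simp

theorem IsTorP.pow_left {α β : MulAut (PG K)} {s s' l' : K} {τ : K ≃+* K}
    (h : IsTorP α s 1 (RingEquiv.refl K)) (h' : IsTorP β s' l' τ) (k : ℕ) : IsTorP (α ^ k * β) (s ^ k * s') l' τ := by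
  induction k with
  | zero =>
    rw [pow_zero, pow_zero, one_mul, one_mul]
    exact h'
  | succ k ih =>
    have h1 := IsTorP.mul_left h ih
    rw [pow_succ', pow_succ', mul_assoc, mul_assoc]
    rwa [one_mul] at h1

/-- the powers of `1 + i` -/
def pw : ℕ → ZMod 3 × ZMod 3
  | 0 => (1, 0)
  | k + 1 => ((pw k).1 - (pw k).2, (pw k).1 + (pw k).2)

theorem re_im_pow (C : Cx K) (k : ℕ) : C.re ((1 + C.i) ^ k) = (pw k).1 ∧ C.im ((1 + C.i) ^ k) = (pw k).2 := by
  induction k with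
  | zero => exact ⟨by rw [pow_zero, C.re_one]; rfl, by rw [pow_zero, C.im_one]; rfl⟩
  | succ k ih =>
    rw [pow_succ, C.re_mul, C.im_mul, C.re_add, C.im_add, C.re_one, C.im_one, C.re_i, C.im_i, ih.1, ih.2]
    refine ⟨?_, ?_⟩
    · show _ = (pw k).1 - (pw k).2
      ring
    · show _ = (pw k).1 + (pw k).2
      ring

theorem exists_pow (C : Cx K) {s : K} (hs : s ≠ 0) : ∃ k : ℕ, s = (1 + C.i) ^ k := by
  have h1 : ∀ a b : ZMod 3, (a = 0 ∧ b = 0) ∨ ∃ k : Fin 8, pw k = (a, b) := by decide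
  rcases h1 (C.re s) (C.im s) with ⟨h2, h3⟩ | ⟨k, hk⟩
  · exact absurd (C.ext (h2.trans C.re_zero.symm) (h3.trans C.im_zero.symm)) hs
  · refine ⟨k, C.ext ?_ ?_⟩
    · rw [(re_im_pow C k).1, hk]
    · rw [(re_im_pow C k).2, hk]

/-- the whole torus from three generators -/
theorem TP_le {p n : ℕ} (hG : StGrp.{u}) (hK : HypK K p n) (C : Cx K) {H : Subgroup (MulAut (PG K))}
    (h1 : ∀ α : MulAut (PG K), IsTorP α (1 + C.i) 1 (RingEquiv.refl K) → α ∈ H)
    (h2 : ∀ α : MulAut (PG K), ∀ τ : K ≃+* K, (∀ x, τ x = star x) → IsTorP α 1 1 τ → α ∈ H)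
    (h3 : ∀ α : MulAut (PG K), IsTorP α 1 (-1) (RingEquiv.refl K) → α ∈ H) : TP K ≤ H := by
  obtain ⟨-, -, hex, hall, -⟩ := hG hK
  have hs0 : (1 + C.i) ≠ 0 := by
    intro h
    have := congrArg C.re h
    rw [C.re_add, C.re_one, C.re_i, C.re_zero] at this
    revert this
    decide
  obtain ⟨A, hA⟩ := hex (1 + C.i) 1 (RingEquiv.refl K) hs0 one_ne_zero (star_one K)
  obtain ⟨B, hB⟩ := hex 1 (-1) (RingEquiv.refl K) one_ne_zero (neg_ne_zero.2 one_ne_zero) (by simp)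
  obtain ⟨D, hD⟩ := hex 1 1 starRingAut one_ne_zero one_ne_zero (star_one K)
  have hAH := h1 A hA
  have hBH := h3 B hB
  have hDH := h2 D starRingAut (fun x => rfl) hD
  intro α hα
  obtain ⟨s, l, τ, h⟩ := hall α hα
  obtain ⟨k, hk⟩ := exists_pow C h.ns
  -- the field automorphism
  obtain ⟨τ', β, hβH, hβ, hτ⟩ : ∃ (τ' : K ≃+* K) (β : MulAut (PG K)), β ∈ H ∧ IsTorP β 1 1 τ' ∧ ∀ x, τ x = τ' x := by
    rcases C.aut_cases τ with h4 | h4
    · exact ⟨RingEquiv.refl K, 1, H.one_mem, IsTorP.one, h4⟩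
    · exact ⟨starRingAut, D, hDH, hD, h4⟩
  obtain ⟨γ, hγH, hγ⟩ : ∃ γ ∈ H, IsTorP γ 1 l τ' := by
    rcases l_cases C h.nl h.sl with rfl | rfl
    · exact ⟨β, hβH, hβ⟩
    · have h5 := IsTorP.mul_left hB hβ
      rw [one_mul, mul_one] at h5
      exact ⟨B * β, H.mul_mem hBH hβH, h5⟩
  have h6 := IsTorP.pow_left hA hγ k
  rw [mul_one, ← hk] at h6
  rw [IsTorP.ext' h h6 hτ]
  exact H.mul_mem (H.pow_mem hAH k) hγH

theorem ep_zero (x : M6) : M6.ep 0 0 x = x := by
  ext <;> simp [M6.ep, M6.be_apply]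

/-- the Weyl element on `Q` -/
theorem Sys.wq {G : Type} [Group G] {C : Cx K} {φ : M6 →* G} {F : FusionSystem (⊤ : Subgroup (PG K))} {p n : ℕ}
    (hG : StGrp.{u}) (hK : HypK K p n) (h : Sys C φ F)
    (hr : ∃ g : G, ∀ x : M6, x.c = 0 → φ (M6.wk 0 0 x) = g * φ x * g⁻¹) : ∃ γ ∈ F.autGroup (PQ K), IsWQ γ := by
  obtain ⟨-, -, -, -, -, -, -, ⟨w, hw⟩⟩ := hG hK
  obtain ⟨g, hg⟩ := hr
  refine ⟨w, ?_, hw⟩
  rw [h.aut]
  refine ⟨g, fun e => ?_⟩
  rw [iso_wq C hw]
  have he : (e : PG K).c = 0 := e.2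
  have h1 := hg (iso C (e : PG K)) (by rw [iso_c, he, C.re_zero])
  have h2 : M6.wk 0 0 (iso C (e : PG K)) = M6.wq (iso C (e : PG K)) := by
    unfold M6.wk
    rw [neg_zero, ep_zero, ep_zero]
  rw [h2] at h1
  exact h1

/-- **(3P) for `Co₂`** -/
theorem stThreeP_co2 (hG : StGrp.{u}) (hPos : StPos.{u}) (hC : Cfsg.Agent.H756.PU.StCompl.{u}) (hTI : StTI.{u})
    (hD3 : StThreeD.{u}) (hN3 : StThreeN.{u}) : StThreeP.{u} 32 3840 := by
  intro K _ _ p n _ hK h3
  obtain ⟨C⟩ := exists_Cx hK h3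
  obtain ⟨F, hF, hFr, hS⟩ := exists_sys (p := p) h3 C pA pA_injective index_A
  have hi1 : C.i ≠ 1 := by
    intro h
    have := C.ii
    rw [h, mul_one] at this
    exact two_ne C (by linear_combination this)
  have hi2 : C.i ≠ -1 := by
    intro h
    have := C.ii
    rw [h] at this
    exact two_ne C (by linear_combination this)
  -- the torus
  have hT : TP K ≤ AF F := by
    refine TP_le hG hK C (fun α hα => ?_) (fun α τ hτ hα => ?_) (fun α hα => ?_)
    · obtain ⟨g, hg⟩ := A_t1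
      refine hS.tor ⟨g, fun x => hg x trivial⟩ hα ?_ ?_ ?_ (fun x => rfl)
      · rw [C.re_add, C.re_one, C.re_i, add_zero]
      · rw [C.im_add, C.im_one, C.im_i, zero_add]
      · exact C.re_one
    · obtain ⟨g, hg⟩ := A_t2
      exact hS.tor' ⟨g, fun x => hg x trivial⟩ hα C.re_one C.im_one C.re_one hτ
    · obtain ⟨g, hg⟩ := A_t4
      exact hS.tor ⟨g, fun x => hg x trivial⟩ hα C.re_one C.im_one (by rw [C.re_neg, C.re_one]) (fun x => rfl)
  obtain ⟨hAF, hcard⟩ := AF_eq_TP hG hPos hC hK h3 hF hT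
  -- the Weyl elements
  obtain ⟨γv, hγv, hwv⟩ := hS.wv hG hK (by
    obtain ⟨g, hg⟩ := A_v
    exact ⟨g, fun x h0 h1 => hg x ⟨h0, h1⟩⟩)
  obtain ⟨γq, hγq, hwq⟩ := hS.wq hG hK (by
    obtain ⟨g, hg⟩ := A_w0
    exact ⟨g, fun x h0 => hg x h0⟩)
  have hnv : ¬ ∀ γ ∈ F.autGroup (PV K), NormAut (⊤ : Subgroup (PG K)) γ := fun h => nn_wv hwv (h _ hγv)
  have hnq : ¬ ∀ γ ∈ F.autGroup (PQ K), NormAut (⊤ : Subgroup (PG K)) γ := fun h => nn_wq hwq (h _ hγq)
  have hp0 : (0 : K) ∈ Pt (F.autGroup (PQ K)) := hS.wk hG hK h3 C.re_zero C.im_zero (by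
    obtain ⟨g, hg⟩ := A_w0
    exact ⟨g, fun x h0 => hg x h0⟩)
  have hp1 : (1 : K) ∈ Pt (F.autGroup (PQ K)) := hS.wk hG hK h3 C.re_one C.im_one (by
    obtain ⟨g, hg⟩ := A_w1
    exact ⟨g, fun x h0 => hg x h0⟩)
  -- the parabolic
  have hp3 : p = 3 := p_eq hK.pp h3
  have hcop : (Nat.card (TP K)).Coprime p := by
    rw [card_TP hG hK h3, hp3]
    decide
  have hpar := parQ hG hTI hK hF le_rfl hcop hAF hnq
  have hHas : ∀ f g : K → K, HasTorP (TP K) f g := fun f g t _ α hα => Subgroup.subset_closure ⟨_, _, _, hα⟩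
  obtain ⟨κ, T, hfix, hPt, hinv, -, hLD, -⟩ := hD3 hK h3 C.i C.ii _ _ hpar (hHas _ _)
  -- `κ = 0`
  have hκ : κ = 0 := by
    obtain ⟨d, hd⟩ := (hG hK).2.2.1 1 (-1) (RingEquiv.refl K) one_ne_zero (neg_ne_zero.2 one_ne_zero) (by simp)
    have h4 := hfix d (Subgroup.subset_closure ⟨_, _, _, hd⟩) _ _ _ hd
    unfold actK at h4
    rw [star_one, inv_one, mul_one, mul_one, RingEquiv.refl_apply] at h4
    have h5 : 2 * κ = 0 := by linear_combination -h4
    exact (mul_eq_zero.1 h5).resolve_left (two_ne C)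
  subst hκ
  have hPt' : Pt (F.autGroup (PQ K)) = Cfg C.i T := by
    rw [hPt]
    ext x
    simp
  rw [hPt'] at hp0 hp1
  -- `i` is a point
  have hpi : C.i ∈ Cfg C.i T := by
    have hs0 : (1 + C.i) ≠ 0 := fun h => hi2 (by linear_combination h)
    obtain ⟨d, hd⟩ := (hG hK).2.2.1 (1 + C.i) 1 (RingEquiv.refl K) hs0 one_ne_zero (star_one K)
    have h4 := hinv d (Subgroup.subset_closure ⟨_, _, _, hd⟩) _ _ _ hd 1 hp1
    have h5 : actK (1 + C.i) 1 (RingEquiv.refl K) 1 = C.i := by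
      unfold actK
      have h6 : (1 - C.i) ≠ 0 := fun h => hi1 (by linear_combination -h)
      rw [star_add, star_one, C.si, RingEquiv.refl_apply, ← sub_eq_add_neg, one_mul, mul_one, ← div_eq_mul_inv,
        div_eq_iff h6]
      linear_combination C.ii
    rwa [h5] at h4
  have hT5 : T = 5 := by
    fin_cases T
    · exact absurd hp1 one_ne_zero
    · rcases hpi with h | h | h
      · exact absurd h (i_ne C)
      · exact absurd h hi1
      · exact absurd h hi2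
    · rcases hp1 with h | h | h
      · exact absurd h one_ne_zero
      · exact absurd h.symm hi1
      · exact absurd (by rw [h, neg_neg] : C.i = -1) hi2
    · rcases hp0 with h | h
      · exact absurd (by linear_combination -h) hi2
      · exact absurd (by
          have h' : (0 : K) = -(1 + C.i) := h
          linear_combination h') hi2
    · rcases hp0 with h | h
      · exact absurd (by linear_combination h) hi1
      · exact absurd (by
          have h' : (0 : K) = -(1 - C.i) := h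
          linear_combination -h') hi1
    · rfl
  have hN := (hN3 hK h3 C.i C.ii _ _ hpar (hHas _ _) T hPt' hLD).2.2.2 hT5
  refine ⟨F, hF, hFr, hcard, ?_, hnv, hnq⟩
  rw [hN, card_TP hG hK h3]

end

end Cfsg.Agent.H815.P4
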