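import Cfsg.Agent.H815.P4.Base
import Cfsg.Agent.H264.U4.Mod

/-!
# S5210, `q = 3` (3P): the isomorphism of `PG K` with the model `M6` over `ZMod 3` (helper815)
-/

set_option autoImplicit false

namespace Cfsg.Agent.H815.P4

open Cfsg Cfsg.FusionSystem Cfsg.Agent.H776.P4
open Cfsg.Agent.H756.PU (HypK Ess Inv Com NormAut TIAut AF)
open Cfsg.Agent.H264.U4

universe u v

section
variable {K : Type u} [Field K] [StarRing K]

/-- the isomorphism -/
def iso (C : Cx K) : PG K ≃* M6 where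
  toFun g := ⟨C.re g.r, C.im g.r, C.re g.a, C.re g.b, C.im g.b, C.re g.c⟩
  invFun x :=
    { r := C.c x.r0 + C.c x.r1 * C.i
      a := C.c x.a
      b := C.c x.b0 + C.c x.b1 * C.i
      c := C.c x.c
      ha := C.sc _
      hc := C.sc _ }
  left_inv g := PG.ext (C.eq _) (C.c_re_of_fix g.ha) (C.eq _) (C.c_re_of_fix g.hc)
  right_inv x := by
    ext <;> simp only [C.re_mk, C.im_mk, C.re_c]
  map_mul' x y := by
    have hy := C.im_of_fix y.hc
    ext <;> simp only [PG.mul_r, PG.mul_a, PG.mul_b, PG.mul_c, C.re_add, C.im_add, C.re_mul, C.im_mul, C.re_star,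
      C.im_star, M6.mul_r0, M6.mul_r1, M6.mul_a, M6.mul_b0, M6.mul_b1, M6.mul_c, hy]
    · ring
    · ring
    · ring

theorem iso_r0 (C : Cx K) (g : PG K) : (iso C g).r0 = C.re g.r := rfl
theorem iso_r1 (C : Cx K) (g : PG K) : (iso C g).r1 = C.im g.r := rfl
theorem iso_a (C : Cx K) (g : PG K) : (iso C g).a = C.re g.a := rfl
theorem iso_b0 (C : Cx K) (g : PG K) : (iso C g).b0 = C.re g.b := rfl
theorem iso_b1 (C : Cx K) (g : PG K) : (iso C g).b1 = C.im g.b := rfl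
theorem iso_c (C : Cx K) (g : PG K) : (iso C g).c = C.re g.c := rfl

/-- the torus, without field automorphism -/
theorem iso_tor (C : Cx K) {α : MulAut (PG K)} {s l : K} {τ : K ≃+* K} (h : IsTorP α s l τ) (hτ : ∀ x, τ x = x)
    (g : PG K) : iso C (α g) = M6.tor (C.re s) (C.im s) (C.re l) 1 (iso C g) := by
  have hl := C.im_of_fix h.sl
  have ha := C.im_of_fix g.ha
  have hc := C.im_of_fix g.hc
  ext <;> simp only [iso_r0, iso_r1, iso_a, iso_b0, iso_b1, iso_c, h.r, h.a, h.b, h.c, hτ, C.re_mul, C.im_mul,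
    C.re_star, C.im_star, hl, ha, hc, M6.tor] <;> ring

/-- the torus, with field automorphism -/
theorem iso_tor' (C : Cx K) {α : MulAut (PG K)} {s l : K} {τ : K ≃+* K} (h : IsTorP α s l τ) (hτ : ∀ x, τ x = star x)
    (g : PG K) : iso C (α g) = M6.tor (C.re s) (C.im s) (C.re l) (-1) (iso C g) := by
  have hl := C.im_of_fix h.sl
  have ha := C.im_of_fix g.ha
  have hc := C.im_of_fix g.hc
  ext <;> simp only [iso_r0, iso_r1, iso_a, iso_b0, iso_b1, iso_c, h.r, h.a, h.b, h.c, hτ, C.re_mul, C.im_mul,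
    C.re_star, C.im_star, hl, ha, hc, M6.tor] <;> ring

theorem iso_wv (C : Cx K) {γ : MulAut (PV K)} (h : IsWV γ) (e : PV K) :
    iso C ((γ e : PV K) : PG K) = M6.wv (iso C (e : PG K)) := by
  have h1 : ((γ e : PV K) : PG K).r = 0 := (γ e).2
  ext <;> simp only [iso_r0, iso_r1, iso_a, iso_b0, iso_b1, iso_c, h.a, h.b, h.c, h1, C.re_neg, C.im_neg,
    C.re_star, C.im_star, C.re_zero, C.im_zero, M6.wv, neg_neg]

theorem iso_wq (C : Cx K) {γ : MulAut (PQ K)} (h : IsWQ γ) (e : PQ K) :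
    iso C ((γ e : PQ K) : PG K) = M6.wq (iso C (e : PG K)) := by
  have h1 : ((γ e : PQ K) : PG K).c = 0 := (γ e).2
  have h2 : (e : PG K).c = 0 := e.2
  ext <;> simp only [iso_r0, iso_r1, iso_a, iso_b0, iso_b1, iso_c, h.r, h.a, h.b, h1, h2, C.re_neg, C.im_neg,
    C.re_star, C.im_star, C.re_zero, M6.wq, C.re_sub, C.re_add, C.re_mul]
  ring

theorem iso_ep (C : Cx K) {κ : K} {ε : MulAut (PG K)} (h : IsEp κ ε) (g : PG K) :
    iso C (ε g) = M6.ep (C.re κ) (C.im κ) (iso C g) := by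
  ext <;> simp only [iso_r0, iso_r1, iso_a, iso_b0, iso_b1, iso_c, h.r, h.a, h.b, h.c, C.re_neg, C.im_neg,
    C.re_star, C.im_star, C.re_zero, C.im_zero, M6.ep, M6.be_apply, C.re_sub, C.re_add, C.re_mul, C.im_mul, C.im_add] <;> ring

theorem ep_ep (k0 k1 : ZMod 3) (x : M6) : M6.ep (-k0) (-k1) (M6.ep k0 k1 x) = x := by
  ext <;> simp only [M6.ep, M6.be_apply] <;> ring

theorem iso_ep_inv (C : Cx K) {κ : K} {ε : MulAut (PG K)} (h : IsEp κ ε) (g : PG K) :
    iso C (ε⁻¹ g) = M6.ep (-C.re κ) (-C.im κ) (iso C g) := by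
  have h1 := iso_ep C h (ε⁻¹ g)
  rw [MulAut.apply_inv_self] at h1
  rw [h1, ep_ep]

/-- `W_κ` -/
theorem iso_wk (C : Cx K) {κ : K} {γ : MulAut (PQ K)} (h : IsWk κ γ) (e : PQ K) :
    iso C ((γ e : PQ K) : PG K) = M6.wk (C.re κ) (C.im κ) (iso C (e : PG K)) := by
  obtain ⟨ε, n, t, hε, hn, ht, rfl⟩ := h
  have ht' : ∀ e : PQ K, ((t⁻¹ e : PQ K) : PG K) = ε⁻¹ (e : PG K) := by
    intro e
    have h1 := ht (t⁻¹ e)
    rw [MulAut.apply_inv_self] at h1
    rw [h1, MulAut.inv_apply_self]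
  show iso C ((t (n (t⁻¹ e)) : PQ K) : PG K) = _
  rw [ht, iso_ep C hε, iso_wq C hn, ht', iso_ep_inv C hε]
  rfl

/-- `W_κ` exists -/
theorem exists_wk {p n : ℕ} (hG : StGrp.{u}) (hK : HypK K p n) (h3 : p ^ n = 3) (κ : K) :
    ∃ γ : MulAut (PQ K), IsWk κ γ := by
  obtain ⟨-, -, -, -, -, h6, -, ⟨w, hw⟩⟩ := hG hK
  obtain ⟨ε, hε⟩ := h6 (p_eq hK.pp h3) κ
  have h1 : ∀ g : PG K, (ε.symm g).c = g.c := by
    intro g
    have h2 := hε.c (ε.symm g)
    rw [MulEquiv.apply_symm_apply] at h2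
    exact h2.symm
  let t : MulAut (PQ K) := {
    toFun := fun e => ⟨ε e, by
      have h2 := hε.c (e : PG K)
      exact h2.trans e.2⟩
    invFun := fun e => ⟨ε.symm e, (h1 _).trans e.2⟩
    left_inv := fun e => Subtype.ext (ε.symm_apply_apply _)
    right_inv := fun e => Subtype.ext (ε.apply_symm_apply _)
    map_mul' := fun x y => Subtype.ext (map_mul ε (x : PG K) (y : PG K)) }
  exact ⟨t * w * t⁻¹, ε, w, t, hε, hw, fun e => rfl, rfl⟩

end

end Cfsg.Agent.H815.P4
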