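import Cfsg.Agent.H815.P4.Iso

/-!
# S5210, `q = 3` (3P): from the data on the model `M6` to the fusion system on `PG K` (helper815)

* `Sys` : `F` is the system induced by `φ : M6 →* G` through `iso C`
* `exists_sys`, `Sys.tor`, `Sys.tor'`, `Sys.wv`, `Sys.wk`, `Sys.neg`
-/

set_option autoImplicit false

namespace Cfsg.Agent.H815.P4

open Cfsg Cfsg.FusionSystem Cfsg.Agent.H776.P4
open Cfsg.Agent.H756.PU (HypK Ess Inv Com NormAut TIAut AF)
open Cfsg.Agent.H264.U4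

universe u v

section
variable {K : Type u} [Field K] [StarRing K] {G : Type} [Group G]

/-- `F` is the fusion system on `PG K` induced by the homomorphism `φ` on the model `M6` -/
structure Sys (C : Cx K) (φ : M6 →* G) (F : FusionSystem (⊤ : Subgroup (PG K))) : Prop where
  top : ∀ α : MulAut (PG K), α ∈ AF F ↔ ∃ g : G, ∀ x : PG K, φ (iso C (α x)) = g * φ (iso C x) * g⁻¹
  aut : ∀ (Q : Subgroup (PG K)) (γ : MulAut Q), γ ∈ F.autGroup Q ↔
    ∃ g : G, ∀ e : Q, φ (iso C ((γ e : Q) : PG K)) = g * φ (iso C (e : PG K)) * g⁻¹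

theorem exists_sys {p n : ℕ} [Fact p.Prime] [Finite G] (h3 : p ^ n = 3) (C : Cx K) (φ : M6 →* G)
    (hinj : Function.Injective φ) (hidx : ¬ 3 ∣ φ.range.index) :
    ∃ F : FusionSystem (⊤ : Subgroup (PG K)), F.IsSaturated p ∧ F.IsRealizable p ∧ Sys C φ F := by
  obtain rfl := p_eq (Fact.out : p.Prime) h3
  have hr : (φ.comp (iso C).toMonoidHom).range = φ.range := by
    ext y
    constructor
    · rintro ⟨x, rfl⟩
      exact ⟨_, rfl⟩
    · rintro ⟨x, rfl⟩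
      refine ⟨(iso C).symm x, ?_⟩
      change φ (iso C ((iso C).symm x)) = φ x
      rw [MulEquiv.apply_symm_apply]
  have hpg : IsPGroup 3 (PG K) := IsPGroup.of_card (n := 6) (card_PG C)
  obtain ⟨F, h1, h2, h4, h5⟩ := exists_pull (φ.comp (iso C).toMonoidHom) (hinj.comp (iso C).injective) hpg
    (by rw [hr]; exact hidx)
  exact ⟨F, h1, h2, h4, h5⟩

variable {C : Cx K} {φ : M6 →* G} {F : FusionSystem (⊤ : Subgroup (PG K))}

/-- elements of the torus (no field automorphism) -/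
theorem Sys.tor (h : Sys C φ F) {s0 s1 l : ZMod 3} (hr : ∃ g : G, ∀ x : M6, φ (M6.tor s0 s1 l 1 x) = g * φ x * g⁻¹)
    {α : MulAut (PG K)} {s l' : K} {τ : K ≃+* K} (hα : IsTorP α s l' τ) (h0 : C.re s = s0) (h1 : C.im s = s1)
    (hl : C.re l' = l) (hτ : ∀ x, τ x = x) : α ∈ AF F := by
  obtain ⟨g, hg⟩ := hr
  rw [h.top]
  refine ⟨g, fun x => ?_⟩
  rw [iso_tor C hα hτ, h0, h1, hl]
  exact hg _

/-- elements of the torus (with the field automorphism) -/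
theorem Sys.tor' (h : Sys C φ F) {s0 s1 l : ZMod 3} (hr : ∃ g : G, ∀ x : M6, φ (M6.tor s0 s1 l (-1) x) = g * φ x * g⁻¹)
    {α : MulAut (PG K)} {s l' : K} {τ : K ≃+* K} (hα : IsTorP α s l' τ) (h0 : C.re s = s0) (h1 : C.im s = s1)
    (hl : C.re l' = l) (hτ : ∀ x, τ x = star x) : α ∈ AF F := by
  obtain ⟨g, hg⟩ := hr
  rw [h.top]
  refine ⟨g, fun x => ?_⟩
  rw [iso_tor' C hα hτ, h0, h1, hl]
  exact hg _

/-- the Weyl element on `V` -/
theorem Sys.wv {p n : ℕ} (hG : StGrp.{u}) (hK : HypK K p n) (h : Sys C φ F)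
    (hr : ∃ g : G, ∀ x : M6, x.r0 = 0 → x.r1 = 0 → φ (M6.wv x) = g * φ x * g⁻¹) :
    ∃ γ ∈ F.autGroup (PV K), IsWV γ := by
  obtain ⟨-, -, -, -, -, -, ⟨w, hw⟩, -⟩ := hG hK
  obtain ⟨g, hg⟩ := hr
  refine ⟨w, ?_, hw⟩
  rw [h.aut]
  refine ⟨g, fun e => ?_⟩
  rw [iso_wv C hw]
  have he : (e : PG K).r = 0 := e.2
  refine hg _ ?_ ?_
  · rw [iso_r0, he, C.re_zero]
  · rw [iso_r1, he, C.im_zero]

/-- `W_κ` -/
theorem Sys.wk {p n : ℕ} (hG : StGrp.{u}) (hK : HypK K p n) (h3 : p ^ n = 3) (h : Sys C φ F) {k0 k1 : ZMod 3} {κ : K}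
    (h0 : C.re κ = k0) (h1 : C.im κ = k1)
    (hr : ∃ g : G, ∀ x : M6, x.c = 0 → φ (M6.wk k0 k1 x) = g * φ x * g⁻¹) : κ ∈ Pt (F.autGroup (PQ K)) := by
  obtain ⟨γ, hγ⟩ := exists_wk hG hK h3 κ
  obtain ⟨g, hg⟩ := hr
  refine ⟨γ, ?_, hγ⟩
  rw [h.aut]
  refine ⟨g, fun e => ?_⟩
  rw [iso_wk C hγ, h0, h1]
  have he : (e : PG K).c = 0 := e.2
  refine hg _ ?_
  rw [iso_c, he, C.re_zero]

/-- an automorphism in `Aut_F(S)` inverting `V` and trivial on `S / V` -/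
theorem Sys.neg (h : Sys C φ F) {α : MulAut (PG K)} (hα : α ∈ AF F) (h1 : ∀ x ∈ PV K, α x = x⁻¹)
    (h2 : ∀ x, (α x).r = x.r) : ∃ g : G, (∀ x : M6, x.r0 = 0 → x.r1 = 0 → g * φ x * g⁻¹ = φ x⁻¹) ∧
      ∀ x : M6, ∃ y : M6, y.r0 = x.r0 ∧ y.r1 = x.r1 ∧ g * φ x * g⁻¹ = φ y := by
  obtain ⟨g, hg⟩ := (h.top α).1 hα
  refine ⟨g, fun x hx0 hx1 => ?_, fun x => ?_⟩
  · have h3 := hg ((iso C).symm x)
    rw [MulEquiv.apply_symm_apply] at h3
    have h4 : (iso C).symm x ∈ PV K := by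
      have e0 : ((iso C).symm x).r = C.c x.r0 + C.c x.r1 * C.i := rfl
      change ((iso C).symm x).r = 0
      rw [e0, hx0, hx1, map_zero, zero_mul, add_zero]
    rw [h1 _ h4, map_inv, MulEquiv.apply_symm_apply] at h3
    exact h3.symm
  · have h3 := hg ((iso C).symm x)
    rw [MulEquiv.apply_symm_apply] at h3
    refine ⟨iso C (α ((iso C).symm x)), ?_, ?_, h3.symm⟩
    · rw [iso_r0, h2, ← iso_r0, MulEquiv.apply_symm_apply]
    · rw [iso_r1, h2, ← iso_r1, MulEquiv.apply_symm_apply]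

end

end Cfsg.Agent.H815.P4
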